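import Cfsg.Agent.Lib.FrobFree.Oper

/-!
# Freeness for abelian groups: the group algebra
-/

set_option autoImplicit false
set_option linter.style.haveILetI false

namespace Cfsg.Agent.Lib.FrobFree

open scoped BigOperators

variable {k V H : Type*} [Field k] [AddCommGroup V] [Module k V] [Group H] [Fintype H]
  [DecidableEq H]

/-- A covariant map from a commutative ring. -/
theorem relFree_of_nb {C : Type*} [CommRing C] (ρ : H →* Module.End k V) (φ : C →+* Module.End k V)
    (T : H →* (C ≃+* C)) {f b b' : C} (hnb : NBData T f b b') (hT : ∀ g, T g f = f) (hff : f * f = f)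
    (hcov : ∀ h c, ρ h * φ c = φ (T h c) * ρ h) :
    RelFree ρ (φ f) (φ b * (∑ g : H, ρ g) * φ b') := by
  classical
  set E : Module.End k V := ∑ g : H, ρ g with hE
  have hρE : ∀ h, ρ h * E = E := by
    intro h
    simp only [hE]
    rw [Finset.mul_sum]
    simp only [← map_mul]
    exact Fintype.sum_equiv (Equiv.mulLeft h) _ _ (fun x => rfl)
  have hEρ : ∀ h, E * ρ h = E := by
    intro h
    simp only [hE]
    rw [Finset.sum_mul]
    simp only [← map_mul]
    exact Fintype.sum_equiv (Equiv.mulRight h) _ _ (fun x => rfl)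
  have hEyE : ∀ y : C, E * φ y * E = φ (∑ g : H, T g y) * E := by
    intro y
    rw [map_sum, Finset.sum_mul]
    simp only [hE]
    rw [Finset.sum_mul, Finset.sum_mul]
    refine Finset.sum_congr rfl fun g _ => ?_
    rw [hcov, mul_assoc]
    congr 1
    exact hρE g
  have hinv : ∀ h : H, ρ h⁻¹ * φ (T h b') = φ b' * ρ h⁻¹ := by
    intro h
    rw [hcov, T_inv_T]
  refine ⟨?_, fun h => ?_, ?_, ?_⟩
  · -- the sum
    have h1 : ∀ h : H, ρ h * (φ b * E * φ b') * ρ h⁻¹ = φ (T h b) * E * φ (T h b') := by
      intro h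
      calc ρ h * (φ b * E * φ b') * ρ h⁻¹ = (ρ h * φ b) * E * (φ b' * ρ h⁻¹) := by noncomm_ring
        _ = φ (T h b) * (ρ h * E) * (ρ h⁻¹ * φ (T h b')) := by
            rw [hcov, hinv]; noncomm_ring
        _ = φ (T h b) * (E * ρ h⁻¹) * φ (T h b') := by rw [hρE]; noncomm_ring
        _ = φ (T h b) * E * φ (T h b') := by rw [hEρ]
    rw [Finset.sum_congr rfl (fun h _ => h1 h)]
    have h2 : ∀ h : H, φ (T h b) * E * φ (T h b') = ∑ g : H, φ (T h b * T (g * h) b') * ρ g := by
      intro h
      simp only [hE]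
      rw [Finset.mul_sum, Finset.sum_mul]
      refine Finset.sum_congr rfl fun g _ => ?_
      rw [mul_assoc, hcov, map_mul, ← mul_assoc, T_mul]
    rw [Finset.sum_congr rfl (fun h _ => h2 h), Finset.sum_comm]
    have h3 : ∀ g : H, ∑ h : H, φ (T h b * T (g * h) b') * ρ g =
        φ (∑ h : H, T h b * T (g * h) b') * ρ g := by
      intro g
      rw [map_sum, Finset.sum_mul]
    rw [Finset.sum_congr rfl (fun g _ => h3 g)]
    have h4 : ∀ g : H, φ (∑ h : H, T h b * T (g * h) b') * ρ g =
        if g = 1 then φ f else 0 := by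
      intro g
      rw [hnb.reverse hT hff g]
      by_cases hg : g = 1
      · subst hg; simp
      · simp [hg]
    rw [Finset.sum_congr rfl (fun g _ => h4 g)]
    simp
  · -- orthogonality
    have h1 : φ b * E * φ b' * ρ h * (φ b * E * φ b') =
        φ b * (E * φ (T h b * b') * E) * φ b' := by
      have h2 : φ b' * ρ h * φ b = φ (T h b * b') * ρ h := by
        rw [mul_assoc, hcov, ← mul_assoc, ← map_mul, mul_comm b']
      calc φ b * E * φ b' * ρ h * (φ b * E * φ b') = φ b * E * (φ b' * ρ h * φ b) * E * φ b' := by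
            noncomm_ring
        _ = φ b * E * (φ (T h b * b') * (ρ h * E)) * φ b' := by rw [h2]; noncomm_ring
        _ = _ := by rw [hρE]; noncomm_ring
    rw [h1, hEyE, hnb.tr h]
    by_cases hh : h = 1
    · subst hh
      simp only [if_true]
      have : φ b * (φ f * E) * φ b' = φ (f * b) * E * φ b' := by
        rw [mul_comm f b, map_mul]; noncomm_ring
      rw [this, hnb.left]
    · simp [hh]
  · rw [← mul_assoc, ← mul_assoc, ← map_mul, hnb.left]
  · rw [mul_assoc, ← map_mul, mul_comm, hnb.right]

variable {Z : Type*} [CommGroup Z] [Finite Z]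

/-- The automorphism action on the group algebra. -/
noncomputable def algT (τ : H →* MulAut Z) : H →* (MonoidAlgebra k Z ≃+* MonoidAlgebra k Z) where
  toFun h := (MonoidAlgebra.domCongr k k (τ h)).toRingEquiv
  map_one' := by
    ext x
    induction x using MonoidAlgebra.induction_on with
    | of g => simp
    | add a b ha hb => simp_all
    | smul r a ha => simp_all
  map_mul' := by
    intro a b
    ext x
    induction x using MonoidAlgebra.induction_on with
    | of g => simp
    | add a b ha hb => simp_all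
    | smul r a ha => simp_all

theorem algT_single (τ : H →* MulAut Z) (h : H) (z : Z) (a : k) :
    algT (k := k) τ h (MonoidAlgebra.single z a) = MonoidAlgebra.single (τ h z) a := by
  show MonoidAlgebra.domCongr k k (τ h) (MonoidAlgebra.single z a) = _
  simp

/-- The abelian theorem. -/
theorem abelian_free (hZ : ((Nat.card Z : ℕ) : k) ≠ 0) (ρ : H →* Module.End k V) (τ : H →* MulAut Z)
    (hfpf : ∀ h, h ≠ 1 → ∀ z, τ h z = z → z = 1) (ψ : Z →* Module.End k V)
    (hc : ∀ h z, ρ h * ψ z = ψ (τ h z) * ρ h) :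
    letI := Fintype.ofFinite Z
    ∃ π, RelFree ρ (1 - (((Nat.card Z : ℕ) : k)⁻¹ • ∑ z : Z, ψ z)) π := by
  classical
  letI := Fintype.ofFinite Z
  haveI : NeZero ((Nat.card Z : ℕ) : k) := ⟨hZ⟩
  let C := MonoidAlgebra k Z
  haveI : IsSemisimpleRing C := inferInstanceAs (IsSemisimpleModule C C)
  haveI : IsArtinianRing C := IsArtinianRing.of_finite k C
  let T := algT (k := k) τ
  let s : Z → C := fun z => MonoidAlgebra.single z 1
  have hs1 : s 1 = 1 := rfl
  have hsm : ∀ a b, s a * s b = s (a * b) := by
    intro a b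
    show MonoidAlgebra.single a (1 : k) * MonoidAlgebra.single b (1 : k) = MonoidAlgebra.single (a * b) 1
    rw [MonoidAlgebra.single_mul_single, one_mul]
  have hTs : ∀ h z, T h (s z) = s (τ h z) := fun h z => algT_single τ h z 1
  let c : k := ((Nat.card Z : ℕ) : k)⁻¹
  have hc0 : c * ((Nat.card Z : ℕ) : k) = 1 := inv_mul_cancel₀ hZ
  let sumS : C := ∑ z : Z, s z
  let e₀ : C := c • sumS
  have hsS : ∀ z, s z * sumS = sumS := by
    intro z
    simp only [sumS]
    rw [Finset.mul_sum]
    simp only [hsm]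
    exact Fintype.sum_equiv (Equiv.mulLeft z) _ _ (fun x => rfl)
  have hse : ∀ z, s z * e₀ = e₀ := by
    intro z
    simp only [e₀]
    rw [mul_smul_comm, hsS]
  have hcard : ∀ x : C, (∑ z : Z, (1 : k) • x) = ((Nat.card Z : ℕ) : k) • x := by
    intro x
    rw [Finset.sum_const, Finset.card_univ, Nat.card_eq_fintype_card, ← Nat.cast_smul_eq_nsmul k]
    simp
  have hinvsum : ∀ x : C, (∀ z, s z * x = x) → e₀ * x = x := by
    intro x hx
    simp only [e₀, sumS]
    rw [smul_mul_assoc, Finset.sum_mul, Finset.sum_congr rfl (fun z _ => hx z)]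
    have := hcard x
    simp only [one_smul] at this
    rw [this, smul_smul, hc0, one_smul]
  have hee : e₀ * e₀ = e₀ := hinvsum e₀ hse
  have hTe : ∀ h, T h e₀ = e₀ := by
    intro h
    show T h (c • sumS) = c • sumS
    have h1 : T h (c • sumS) = c • T h sumS := by
      show MonoidAlgebra.domCongr k k (τ h) (c • sumS) = c • MonoidAlgebra.domCongr k k (τ h) sumS
      rw [map_smul]
    rw [h1]
    congr 1
    simp only [sumS]
    rw [map_sum]
    simp only [hTs]
    exact Fintype.sum_equiv (τ h).toEquiv _ _ (fun x => rfl)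
  let f : C := 1 - e₀
  have hff : f * f = f := by
    simp only [f]
    rw [mul_sub, sub_mul, sub_mul, hee]; simp
  have hTf : ∀ h, T h f = f := by
    intro h
    simp only [f]
    rw [map_sub, map_one, hTe]
  have hgood : ∀ e, Prim e → f * e = e → ∀ γ : H, γ ∈ stabI T e → γ ≠ 1 →
      ∃ x, (T γ x - x) * e ≠ 0 := by
    intro e he hfe γ _ hγ1
    by_contra hcon
    push Not at hcon
    -- the difference map is bijective
    let d : Z → Z := fun z => z⁻¹ * τ γ z
    have hd : Function.Injective d := by
      intro a b hab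
      have h1 : τ γ (b * a⁻¹) = b * a⁻¹ := by
        simp only [d] at hab
        rw [map_mul, map_inv]
        have h2 : τ γ b = b * (a⁻¹ * τ γ a) := by
          rw [hab]; group
        rw [h2]
        have h3 : τ γ a * (τ γ a)⁻¹ = 1 := mul_inv_cancel _
        calc b * (a⁻¹ * τ γ a) * (τ γ a)⁻¹ = b * a⁻¹ * (τ γ a * (τ γ a)⁻¹) := by group
          _ = b * a⁻¹ := by rw [h3, mul_one]
      have h2 := hfpf γ hγ1 _ h1
      exact (mul_inv_eq_one.1 h2).symm
    have hds : Function.Surjective d := Finite.injective_iff_surjective.1 hd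
    have hw : ∀ w, s w * e = e := by
      intro w
      obtain ⟨z, rfl⟩ := hds w
      have h1 := hcon (s z)
      rw [hTs, sub_mul, sub_eq_zero] at h1
      calc s (d z) * e = s z⁻¹ * (s (τ γ z) * e) := by
            rw [← mul_assoc, hsm]
        _ = s z⁻¹ * (s z * e) := by rw [h1]
        _ = e := by rw [← mul_assoc, hsm]; simp [hs1]
    have h2 := hinvsum e hw
    apply he.2.1
    rw [← hfe]
    simp only [f]
    rw [sub_mul, one_mul, h2, sub_self]
  obtain ⟨b, b', hnb⟩ := nb_all T _ f rfl hff hTf hgood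
  -- the map to endomorphisms
  let φ : C →+* Module.End k V := (MonoidAlgebra.lift k (Module.End k V) Z ψ).toRingHom
  have hφs : ∀ z, φ (s z) = ψ z := by
    intro z
    show MonoidAlgebra.lift k (Module.End k V) Z ψ (MonoidAlgebra.single z 1) = ψ z
    rw [MonoidAlgebra.lift_single, one_smul]
  have hcov : ∀ h x, ρ h * φ x = φ (T h x) * ρ h := by
    intro h x
    induction x using MonoidAlgebra.induction_on with
    | of g =>
      have h1 : MonoidAlgebra.of k Z g = s g := rfl
      rw [h1, hφs, hTs, hφs, hc]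
    | add a b ha hb => rw [map_add, map_add, map_add, mul_add, add_mul, ha, hb]
    | smul r a ha =>
      have h1 : φ (r • a) = r • φ a :=
        map_smul (MonoidAlgebra.lift k (Module.End k V) Z ψ) r a
      have h2 : T h (r • a) = r • T h a :=
        map_smul (MonoidAlgebra.domCongr k k (τ h)) r a
      have h3 : φ (r • T h a) = r • φ (T h a) :=
        map_smul (MonoidAlgebra.lift k (Module.End k V) Z ψ) r _
      rw [h1, h2, h3, mul_smul_comm, smul_mul_assoc, ha]
  have hφf : φ f = 1 - (((Nat.card Z : ℕ) : k)⁻¹ • ∑ z : Z, ψ z) := by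
    have h1 : φ e₀ = c • ∑ z : Z, ψ z := by
      have h2 : φ e₀ = c • φ sumS :=
        map_smul (MonoidAlgebra.lift k (Module.End k V) Z ψ) c sumS
      rw [h2]
      congr 1
      simp only [sumS]
      rw [map_sum]
      simp only [hφs]
    simp only [f]
    rw [map_sub, map_one, h1]
  refine ⟨φ b * (∑ g : H, ρ g) * φ b', ?_⟩
  rw [← hφf]
  exact relFree_of_nb ρ φ T hnb hTf hff hcov

end Cfsg.Agent.Lib.FrobFree
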