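import Cfsg.Agent.Lib.FrobFree.Orbit

/-!
# The datum `NBData` for reduced Artinian rings
-/

set_option autoImplicit false
set_option linter.style.haveILetI false

namespace Cfsg.Agent.Lib.FrobFree

open scoped BigOperators

variable {C H : Type*} [CommRing C] [Group H]

section Prim

variable [IsArtinianRing C] [IsReduced C]

theorem res_ext (x y : C)
    (h : ∀ n : MaximalSpectrum C, Ideal.Quotient.mk n.asIdeal x = Ideal.Quotient.mk n.asIdeal y) :
    x = y := by
  apply (IsArtinianRing.equivPi C).injective
  funext n
  have h1 := IsArtinianRing.equivPi_apply C x n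
  have h2 := IsArtinianRing.equivPi_apply C y n
  exact h1.trans ((h n).trans h2.symm)

theorem exists_single (m : MaximalSpectrum C) : ∃ e : C,
    Ideal.Quotient.mk m.asIdeal e = 1 ∧ ∀ n, n ≠ m → Ideal.Quotient.mk n.asIdeal e = 0 := by
  classical
  obtain ⟨e, he⟩ := (IsArtinianRing.equivPi C).surjective (Pi.single m 1)
  refine ⟨e, ?_, ?_⟩
  · have h1 := IsArtinianRing.equivPi_apply C e m
    have h2 := congrFun he m
    rw [Pi.single_eq_same] at h2
    exact h1.symm.trans h2
  · intro n hn
    have h1 := IsArtinianRing.equivPi_apply C e n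
    have h2 := congrFun he n
    rw [Pi.single_eq_of_ne hn] at h2
    exact h1.symm.trans h2

/-- A primitive idempotent at a maximal ideal. -/
theorem exists_prim (m : MaximalSpectrum C) :
    ∃ e : C, Prim e ∧ e ∉ m.asIdeal ∧ (∀ x, x ∈ m.asIdeal → x * e = 0) ∧ ∀ x, x ∉ m.asIdeal →
      x * x = x → x * e = e := by
  classical
  obtain ⟨e, hem, hen⟩ := exists_single m
  have hext := res_ext (C := C)
  have hee : e * e = e := by
    apply hext
    intro n
    by_cases hn : n = m
    · subst hn; rw [map_mul, hem, mul_one]
    · rw [map_mul, hen n hn, mul_zero]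
  haveI : m.asIdeal.IsMaximal := m.isMaximal
  have hne : (1 : C ⧸ m.asIdeal) ≠ 0 := by
    intro h
    have : (1 : C) ∈ m.asIdeal := by
      rw [← Ideal.Quotient.eq_zero_iff_mem, map_one]; exact h
    exact m.isMaximal.ne_top ((Ideal.eq_top_iff_one _).2 this)
  have hem' : e ∉ m.asIdeal := by
    intro h
    rw [← Ideal.Quotient.eq_zero_iff_mem, hem] at h
    exact hne h
  have hz : ∀ x, x ∈ m.asIdeal → x * e = 0 := by
    intro x hx
    apply hext
    intro n
    by_cases hn : n = m
    · subst hn
      rw [map_mul, map_zero, Ideal.Quotient.eq_zero_iff_mem.2 hx, zero_mul]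
    · rw [map_mul, hen n hn, mul_zero, map_zero]
  refine ⟨e, ⟨hee, ?_, ?_⟩, hem', hz, ?_⟩
  · rintro h
    exact hem' (by rw [h]; exact Ideal.zero_mem _)
  · intro x
    by_cases hx : x ∈ m.asIdeal
    · exact Or.inl (hz x hx)
    · right
      obtain ⟨y, i, hi, hyi⟩ := m.isMaximal.exists_inv hx
      refine ⟨y, ?_⟩
      apply hext
      intro n
      by_cases hn : n = m
      · subst hn
        have h1 : Ideal.Quotient.mk n.asIdeal (y * x) = 1 := by
          have h2 := congrArg (Ideal.Quotient.mk n.asIdeal) hyi
          rwa [map_add, Ideal.Quotient.eq_zero_iff_mem.2 hi, add_zero, map_one] at h2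
        rw [map_mul, mul_comm x y, h1, one_mul]
      · rw [map_mul, hen n hn, mul_zero]
  · intro x hx hxx
    have h1 : 1 - x ∈ m.asIdeal := by
      have h2 : x * (1 - x) ∈ m.asIdeal := by
        rw [mul_sub, mul_one, hxx, sub_self]; exact Ideal.zero_mem _
      exact ((m.isMaximal.isPrime.mem_or_mem h2).resolve_left hx)
    have := hz _ h1
    rw [sub_mul, one_mul, sub_eq_zero] at this
    exact this.symm

end Prim

variable [Fintype H] [DecidableEq H]

theorem nb_all [IsArtinianRing C] [IsReduced C] (T : H →* (C ≃+* C)) :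
    ∀ (n : ℕ) (f : C), Nat.card {m : MaximalSpectrum C // f ∉ m.asIdeal} = n → f * f = f →
      (∀ h, T h f = f) →
      (∀ e, Prim e → f * e = e → ∀ γ : H, γ ∈ stabI T e → γ ≠ 1 → ∃ x, (T γ x - x) * e ≠ 0) →
      ∃ b b', NBData T f b b' := by
  classical
  intro n
  induction n using Nat.strong_induction_on with
  | _ n ih =>
    intro f hn hff hT hgood
    by_cases hf0 : f = 0
    · subst hf0
      refine ⟨0, 0, by simp, by simp, fun h => ?_⟩
      simp
    -- a maximal ideal not containing `f`
    have hex : ∃ m : MaximalSpectrum C, f ∉ m.asIdeal := by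
      by_contra hcon
      push Not at hcon
      apply hf0
      apply (IsArtinianRing.equivPi C).injective
      funext m
      rw [map_zero]
      exact Ideal.Quotient.eq_zero_iff_mem.2 (hcon m)
    obtain ⟨m, hm⟩ := hex
    obtain ⟨e, he, hem, hz, hid⟩ := exists_prim m
    have hfe : f * e = e := hid f hm hff
    obtain ⟨O, b, b', hOP, heO, hO, hnb⟩ := orbit_nb T he (hgood e he hfe)
    let E : C := ∑ x ∈ O, x
    have hEx : ∀ x ∈ O, E * x = x := by
      intro x hx
      simp only [E]
      rw [Finset.sum_mul, Finset.sum_eq_single x]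
      · exact (hOP x hx).1
      · intro y hy hne
        exact (hOP y hy).orth (hOP x hx) hne
      · intro h; exact absurd hx h
    have hEE : E * E = E := by
      conv_lhs => rw [show E * E = ∑ x ∈ O, E * x by simp only [E, Finset.mul_sum]]
      rw [Finset.sum_congr rfl hEx]
    have hTE : ∀ h, T h E = E := by
      intro h
      simp only [E]
      rw [map_sum]
      refine Finset.sum_bij (fun x _ => T h x) ?_ ?_ ?_ ?_
      · intro x hx
        obtain ⟨g, rfl⟩ := (hO x).1 hx
        exact (hO _).2 ⟨h * g, T_mul _ _ _ _⟩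
      · intro a _ b _ hab
        exact (T h).injective hab
      · intro y hy
        obtain ⟨g, rfl⟩ := (hO y).1 hy
        refine ⟨T (h⁻¹ * g) e, (hO _).2 ⟨_, rfl⟩, ?_⟩
        rw [← T_mul]; simp
      · intro x _; rfl
    have hfx : ∀ x ∈ O, f * x = x := by
      intro x hx
      obtain ⟨g, rfl⟩ := (hO x).1 hx
      conv_lhs => rw [← hT g, ← map_mul, hfe]
    have hfE : f * E = E := by
      simp only [E]
      rw [Finset.mul_sum]
      exact Finset.sum_congr rfl hfx
    let f' := f - E
    have hf'E : f' * E = 0 := by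
      simp only [f']
      rw [sub_mul, hfE, hEE, sub_self]
    have hff' : f * f' = f' := by
      simp only [f']
      rw [mul_sub, hff, hfE]
    have hf'f' : f' * f' = f' := by
      calc f' * f' = f' * (f - E) := rfl
        _ = f' * f - f' * E := by rw [mul_sub]
        _ = f' := by rw [hf'E, sub_zero, mul_comm, hff']
    have hTf' : ∀ h, T h f' = f' := by
      intro h
      simp only [f']
      rw [map_sub, hT, hTE]
    -- the measure decreases
    have hlt : Nat.card {m : MaximalSpectrum C // f' ∉ m.asIdeal} < n := by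
      rw [← hn]
      have hsub : ∀ n : MaximalSpectrum C, f ∈ n.asIdeal → f' ∈ n.asIdeal := fun n h => by
        have := Ideal.mul_mem_right f' n.asIdeal h
        rwa [hff'] at this
      letI : Fintype {m : MaximalSpectrum C // f' ∉ m.asIdeal} := Fintype.ofFinite _
      letI : Fintype {m : MaximalSpectrum C // f ∉ m.asIdeal} := Fintype.ofFinite _
      rw [Nat.card_eq_fintype_card, Nat.card_eq_fintype_card]
      refine Fintype.card_lt_of_injective_not_surjective
        (fun x : {m : MaximalSpectrum C // f' ∉ m.asIdeal} => (⟨x.1, fun h => x.2 (hsub _ h)⟩ :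
          {m : MaximalSpectrum C // f ∉ m.asIdeal})) ?_ ?_
      · intro a b hab
        exact Subtype.ext (congrArg (fun y => y.1) hab)
      · intro hsurj
        obtain ⟨x, hx⟩ := hsurj ⟨m, hm⟩
        have h1 : (x.1 : MaximalSpectrum C) = m := congrArg Subtype.val hx
        apply x.2
        rw [h1]
        have h2 : f' * e = 0 := by
          have : E * e = e := hEx e heO
          simp only [f']
          rw [sub_mul, hfe, this, sub_self]
        have h3 : f' * e ∈ m.asIdeal := by rw [h2]; exact Ideal.zero_mem _
        exact (m.isMaximal.isPrime.mem_or_mem h3).resolve_right hem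
    obtain ⟨c, c', hc⟩ := ih _ hlt f' rfl hf'f' hTf' (by
      intro e' he' hfe' γ hγ hγ1
      apply hgood e' he' _ γ hγ hγ1
      rw [← hfe', ← mul_assoc, hff'])
    refine ⟨c + b, c' + b', ?_⟩
    have := hc.add hnb hTf' hTE hf'E
    have h5 : f' + E = f := by simp [f']
    rwa [show (f' + ∑ x ∈ O, x) = f from h5] at this

end Cfsg.Agent.Lib.FrobFree
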