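import Mathlib

/-!
# Normal elements with dual elements, and primitive idempotents

`field_nb`: a field with a faithful action of a finite group has an element `b` and an element `b'`
with `∑ g, g (h b * b') = δ_{h,1}`.

`NBData`: the same over a commutative ring relative to an invariant idempotent; it is constructed
for reduced Artinian rings under a local faithfulness condition.
-/

set_option autoImplicit false
set_option linter.style.haveILetI false

namespace Cfsg.Agent.Lib.FrobFree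

open scoped BigOperators

/-- Normal basis element with a trace-dual element. -/
theorem field_nb {K Γ : Type*} [Field K] [Group Γ] [Fintype Γ] [DecidableEq Γ] (σ : Γ →* (K ≃+* K))
    (hσ : Function.Injective σ) :
    ∃ b b' : K, ∀ h : Γ, ∑ g : Γ, σ g (σ h b * b') = if h = 1 then 1 else 0 := by
  classical
  letI : MulSemiringAction Γ K := MulSemiringAction.compHom K σ
  haveI : FaithfulSMul Γ K := ⟨fun {g₁ g₂} h => hσ (RingEquiv.ext fun x => h x)⟩
  let L := FixedPoints.subfield Γ K
  haveI : FiniteDimensional L K := inferInstance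
  haveI : IsGalois L K := inferInstance
  let e : Γ ≃* (K ≃ₐ[L] K) := FixedPoints.toAlgAutMulEquiv Γ K
  have he : ∀ (g : Γ) (x : K), e g x = σ g x := fun _ _ => rfl
  let nb := IsGalois.normalBasis L K
  let B := Algebra.traceForm L K
  have hB : B.Nondegenerate := traceForm_nondegenerate L K
  let db := B.dualBasis hB nb
  refine ⟨nb 1, db 1, fun h => ?_⟩
  have h1 : ∀ x : K, ∑ g : Γ, σ g x = algebraMap L K (Algebra.trace L K x) := by
    intro x
    rw [trace_eq_sum_automorphisms]
    exact (Fintype.sum_equiv e.toEquiv _ _ (fun g => rfl))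
  rw [h1]
  have h2 : σ h (nb 1) = nb (e h) := by
    rw [IsGalois.normalBasis_apply (e h)]
    rfl
  have h3 : Algebra.trace L K (nb (e h) * db 1) = B (db 1) (nb (e h)) := by
    simp [B, Algebra.traceForm_apply, mul_comm]
  rw [h2, h3, LinearMap.BilinForm.apply_dualBasis_left]
  by_cases hh : h = 1
  · subst hh
    simp only [map_one, if_true]
  · have : e h ≠ 1 := fun h4 => hh (e.injective (by simpa using h4))
    simp [hh, this]

variable {C H : Type*} [CommRing C] [Group H]

/-- Primitive idempotents (with field corner). -/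
def Prim (e : C) : Prop :=
  e * e = e ∧ e ≠ 0 ∧ ∀ x : C, x * e = 0 ∨ ∃ y, x * y * e = e

theorem Prim.mul_of_idem {e g : C} (he : Prim e) (hg : g * g = g) : g * e = 0 ∨ g * e = e := by
  rcases he.2.2 g with h | ⟨y, hy⟩
  · exact Or.inl h
  · right
    calc g * e = g * (g * y * e) := by rw [hy]
      _ = (g * g) * y * e := by ring
      _ = e := by rw [hg, hy]

theorem Prim.orth {e₁ e₂ : C} (h₁ : Prim e₁) (h₂ : Prim e₂) (hne : e₁ ≠ e₂) : e₁ * e₂ = 0 := by
  rcases h₂.mul_of_idem h₁.1 with h | h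
  · exact h
  rcases h₁.mul_of_idem h₂.1 with h' | h'
  · rw [mul_comm]; exact h'
  · exact absurd (by rw [← h', mul_comm, h]) hne

theorem Prim.map {e : C} (he : Prim e) (T : C ≃+* C) : Prim (T e) := by
  refine ⟨by rw [← map_mul, he.1], by simpa using he.2.1, fun x => ?_⟩
  rcases he.2.2 (T.symm x) with h | ⟨y, hy⟩
  · left
    have := congrArg T h
    simpa using this
  · right
    refine ⟨T y, ?_⟩
    have := congrArg T hy
    simpa using this

/-- The relative normal basis datum. -/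
structure NBData [Fintype H] [DecidableEq H] (T : H →* (C ≃+* C)) (f b b' : C) : Prop where
  left : f * b = b
  right : f * b' = b'
  tr : ∀ h : H, ∑ g : H, T g (T h b * b') = if h = 1 then f else 0

theorem NBData.add [Fintype H] [DecidableEq H] {T : H →* (C ≃+* C)} {f₁ f₂ b₁ b₂ c₁ c₂ : C}
    (h₁ : NBData T f₁ b₁ c₁) (h₂ : NBData T f₂ b₂ c₂) (hT₁ : ∀ h, T h f₁ = f₁) (hT₂ : ∀ h, T h f₂ = f₂)
    (horth : f₁ * f₂ = 0) : NBData T (f₁ + f₂) (b₁ + b₂) (c₁ + c₂) := by
  have hc12 : ∀ h : H, T h b₁ * c₂ = 0 := by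
    intro h
    have : T h b₁ = f₁ * T h b₁ := by
      conv_lhs => rw [← h₁.left, map_mul, hT₁]
    rw [this, ← h₂.right]
    calc f₁ * T h b₁ * (f₂ * c₂) = (f₁ * f₂) * (T h b₁ * c₂) := by ring
      _ = 0 := by rw [horth, zero_mul]
  have hc21 : ∀ h : H, T h b₂ * c₁ = 0 := by
    intro h
    have : T h b₂ = f₂ * T h b₂ := by
      conv_lhs => rw [← h₂.left, map_mul, hT₂]
    rw [this, ← h₁.right]
    calc f₂ * T h b₂ * (f₁ * c₁) = (f₁ * f₂) * (T h b₂ * c₁) := by ring
      _ = 0 := by rw [horth, zero_mul]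
  refine ⟨?_, ?_, fun h => ?_⟩
  · have h2 : f₁ * b₂ = 0 := by
      rw [← h₂.left]
      calc f₁ * (f₂ * b₂) = (f₁ * f₂) * b₂ := by ring
        _ = 0 := by rw [horth, zero_mul]
    have h3 : f₂ * b₁ = 0 := by
      rw [← h₁.left]
      calc f₂ * (f₁ * b₁) = (f₁ * f₂) * b₁ := by ring
        _ = 0 := by rw [horth, zero_mul]
    calc (f₁ + f₂) * (b₁ + b₂) = f₁ * b₁ + f₁ * b₂ + (f₂ * b₁ + f₂ * b₂) := by ring
      _ = b₁ + b₂ := by rw [h₁.left, h₂.left, h2, h3]; ring
  · have h2 : f₁ * c₂ = 0 := by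
      rw [← h₂.right]
      calc f₁ * (f₂ * c₂) = (f₁ * f₂) * c₂ := by ring
        _ = 0 := by rw [horth, zero_mul]
    have h3 : f₂ * c₁ = 0 := by
      rw [← h₁.right]
      calc f₂ * (f₁ * c₁) = (f₁ * f₂) * c₁ := by ring
        _ = 0 := by rw [horth, zero_mul]
    calc (f₁ + f₂) * (c₁ + c₂) = f₁ * c₁ + f₁ * c₂ + (f₂ * c₁ + f₂ * c₂) := by ring
      _ = c₁ + c₂ := by rw [h₁.right, h₂.right, h2, h3]; ring
  · have : ∀ g : H, T g (T h (b₁ + b₂) * (c₁ + c₂)) = T g (T h b₁ * c₁) + T g (T h b₂ * c₂) := by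
      intro g
      have e1 : T h (b₁ + b₂) * (c₁ + c₂) = T h b₁ * c₁ + T h b₁ * c₂ + T h b₂ * c₁ + T h b₂ * c₂ := by
        rw [map_add]; ring
      rw [e1, hc12, hc21, add_zero, add_zero, map_add]
    rw [Finset.sum_congr rfl (fun g _ => this g), Finset.sum_add_distrib, h₁.tr, h₂.tr]
    split_ifs <;> simp

end Cfsg.Agent.Lib.FrobFree
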