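import Cfsg.Agent.Lib.FrobFree.Abelian
import Cfsg.Agent.Lib.FrobRep.PModular
import Cfsg.Agent.Lib.Basic.SylowUtil

/-!
# Freeness of modules over Frobenius complements

A nilpotent group `F`, acted on fixed point freely by `H`, and a compatible representation on `V`
without `F`-fixed vectors: `V` is free over `H`.
-/

set_option autoImplicit false
set_option linter.style.haveILetI false

namespace Cfsg.Agent.Lib.FrobFree

open scoped BigOperators

universe u

section Aux

variable {H : Type*} [Group H]

theorem tau_inv_tau {F : Type*} [Group F] (τ : H →* MulAut F) (h : H) (x : F) :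
    τ h⁻¹ (τ h x) = x := by
  rw [map_inv]; simp

theorem tau_tau_inv {F : Type*} [Group F] (τ : H →* MulAut F) (h : H) (x : F) :
    τ h (τ h⁻¹ x) = x := by
  rw [map_inv]; simp

/-- Restriction to an invariant subgroup. -/
def restrictTau {F : Type*} [Group F] (τ : H →* MulAut F) (S : Subgroup F)
    (hS : ∀ h x, x ∈ S → τ h x ∈ S) : H →* MulAut S where
  toFun h :=
    { toFun := fun x => ⟨τ h x, hS h x x.2⟩
      invFun := fun x => ⟨τ h⁻¹ x, hS _ _ x.2⟩
      left_inv := fun x => Subtype.ext (tau_inv_tau τ h x)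
      right_inv := fun x => Subtype.ext (tau_tau_inv τ h x)
      map_mul' := fun x y => Subtype.ext (by simp) }
  map_one' := by
    ext x
    simp
  map_mul' := by
    intro a b
    ext x
    simp

theorem restrictTau_coe {F : Type*} [Group F] (τ : H →* MulAut F) (S : Subgroup F)
    (hS : ∀ h x, x ∈ S → τ h x ∈ S) (h : H) (x : S) : ((restrictTau τ S hS h x : S) : F) = τ h x :=
  rfl

theorem map_eq_of_stable {F : Type*} [Group F] (τ : H →* MulAut F) (S : Subgroup F)
    (hS : ∀ h x, x ∈ S → τ h x ∈ S) (h : H) : S.map (τ h : F ≃* F).toMonoidHom = S := by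
  apply le_antisymm
  · rintro _ ⟨x, hx, rfl⟩
    exact hS h x hx
  · intro x hx
    exact ⟨τ h⁻¹ x, hS _ _ hx, tau_tau_inv τ h x⟩

/-- The induced action on a quotient. -/
noncomputable def quotTau {F : Type*} [Group F] (τ : H →* MulAut F) (S : Subgroup F) [S.Normal]
    (hS : ∀ h x, x ∈ S → τ h x ∈ S) : H →* MulAut (F ⧸ S) where
  toFun h := QuotientGroup.congr S S (τ h) (map_eq_of_stable τ S hS h)
  map_one' := by
    ext x
    induction x using QuotientGroup.induction_on with
    | H x => simp
  map_mul' := by
    intro a b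
    ext x
    induction x using QuotientGroup.induction_on with
    | H x => simp; rfl

theorem quotTau_mk {F : Type*} [Group F] (τ : H →* MulAut F) (S : Subgroup F) [S.Normal]
    (hS : ∀ h x, x ∈ S → τ h x ∈ S) (h : H) (x : F) :
    quotTau τ S hS h (x : F ⧸ S) = ((τ h x : F) : F ⧸ S) :=
  rfl

/-- Fixed point freeness on quotients. -/
theorem quotTau_fpf {F : Type*} [Group F] [Finite F] (τ : H →* MulAut F) (S : Subgroup F) [S.Normal]
    (hS : ∀ h x, x ∈ S → τ h x ∈ S) (h : H) (hfpf : ∀ z, τ h z = z → z = 1)
    (x : F ⧸ S) (hx : quotTau τ S hS h x = x) : x = 1 := by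
  induction x using QuotientGroup.induction_on with
  | H x =>
    rw [quotTau_mk, QuotientGroup.eq] at hx
    -- the difference map
    have hd : ∀ a b : F, (τ h a)⁻¹ * a = (τ h b)⁻¹ * b → a = b := by
      intro a b hab
      have h1 : τ h (b * a⁻¹) = b * a⁻¹ := by
        rw [map_mul, map_inv]
        calc τ h b * (τ h a)⁻¹ = τ h b * ((τ h a)⁻¹ * a) * a⁻¹ := by group
          _ = τ h b * ((τ h b)⁻¹ * b) * a⁻¹ := by rw [hab]
          _ = b * a⁻¹ := by group
      have h2 := hfpf _ h1
      exact (mul_inv_eq_one.1 h2).symm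
    let dS : S → S := fun y => ⟨(τ h y)⁻¹ * y, S.mul_mem (S.inv_mem (hS h _ y.2)) y.2⟩
    have hdS : Function.Injective dS := by
      intro a b hab
      exact Subtype.ext (hd _ _ (congrArg Subtype.val hab))
    obtain ⟨y, hy⟩ := (Finite.injective_iff_surjective.1 hdS) ⟨_, hx⟩
    have h3 : (y : F) = x := hd _ _ (congrArg Subtype.val hy)
    rw [QuotientGroup.eq_one_iff]
    rw [← h3]
    exact y.2

end Aux

variable {k V H : Type*} [Field k] [AddCommGroup V] [Module k V] [Group H] [Fintype H]
  [DecidableEq H]

/-- A version of `abelian_free` for groups given as `Group` with commutativity. -/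
theorem abelian_free' {Z : Type*} [Group Z] [Finite Z] (hcomm : ∀ a b : Z, a * b = b * a)
    (hZ : ((Nat.card Z : ℕ) : k) ≠ 0) (ρ : H →* Module.End k V) (τ : H →* MulAut Z)
    (hfpf : ∀ h, h ≠ 1 → ∀ z, τ h z = z → z = 1) (ψ : Z →* Module.End k V)
    (hc : ∀ h z, ρ h * ψ z = ψ (τ h z) * ρ h) :
    letI := Fintype.ofFinite Z
    ∃ π, RelFree ρ (1 - (((Nat.card Z : ℕ) : k)⁻¹ • ∑ z : Z, ψ z)) π := by
  letI inst : CommGroup Z := { (inferInstance : Group Z) with mul_comm := hcomm }
  exact abelian_free (Z := Z) hZ ρ τ hfpf ψ hc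

/-- Central element of prime order. -/
theorem exists_central_of_prime {F : Type*} [Group F] [Finite F] (hnil : Group.IsNilpotent F) (r : ℕ)
    (hr : r.Prime) (hrd : r ∣ Nat.card F) :
    ∃ z : F, z ≠ 1 ∧ z ∈ Subgroup.center F ∧ z ^ r = 1 := by
  classical
  haveI : Fact r.Prime := ⟨hr⟩
  obtain ⟨R⟩ : Nonempty (Sylow r F) := inferInstance
  haveI hRn : (R : Subgroup F).Normal :=
    Sylow.normal_of_normalizerCondition Group.normalizerCondition_of_isNilpotent R
  have hRb : (R : Subgroup F) ≠ ⊥ := R.ne_bot_of_dvd_card hrd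
  have h1 := Cfsg.Agent.Lib.Basic.SylowUtil.inf_center_ne_bot_of_isNilpotent hRb
  rcases Subgroup.bot_or_exists_ne_one ((R : Subgroup F) ⊓ Subgroup.center F) with h0 | ⟨x, hx, hx1⟩
  · exact absurd h0 h1
  obtain ⟨hxR, hxC⟩ := Subgroup.mem_inf.1 hx
  obtain ⟨m, hm⟩ := (IsPGroup.iff_card.1 R.isPGroup')
  have hord : orderOf x ∣ r ^ m := by
    rw [← hm]
    have := Subgroup.orderOf_dvd_natCard (R : Subgroup F) hxR
    exact this
  obtain ⟨s, _, hs⟩ := (Nat.dvd_prime_pow hr).1 hord
  have hs0 : s ≠ 0 := by
    rintro rfl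
    rw [pow_zero, orderOf_eq_one_iff] at hs
    exact hx1 hs
  obtain ⟨t, rfl⟩ := Nat.exists_eq_succ_of_ne_zero hs0
  refine ⟨x ^ r ^ t, ?_, Subgroup.pow_mem _ hxC _, ?_⟩
  · apply pow_ne_one_of_lt_orderOf
    · exact (pow_pos hr.pos t).ne'
    · rw [hs]
      exact Nat.pow_lt_pow_right hr.one_lt (Nat.lt_succ_self t)
  · rw [← pow_mul, ← pow_succ, ← hs]
    exact pow_orderOf_eq_one x

/-- The main recursion. -/
theorem rel_main [FiniteDimensional k V] (ρ : H →* Module.End k V) (n : ℕ) :
    ∀ (F : Type u) [Group F] [Finite F], Nat.card F = n → Group.IsNilpotent F →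
    ∀ (τ : H →* MulAut F), (∀ h, h ≠ 1 → ∀ x, τ h x = x → x = 1) →
    ∀ (ψ : F →* Module.End k V), (∀ h x, ρ h * ψ x = ψ (τ h x) * ρ h) →
    ∀ e : Module.End k V, e * e = e → (∀ x, ψ x * e = e * ψ x) → (∀ h, ρ h * e = e * ρ h) →
      (∀ x, ψ x * (1 - e) = 1 - e) → (∀ v, e v = v → (∀ x, ψ x v = v) → v = 0) →
      ∃ π, RelFree ρ e π := by
  classical
  induction n using Nat.strong_induction_on with
  | _ n ih =>
  intro F _ _ hn hnil τ hfpf ψ hc e he heψ heρ htriv hfix
  by_cases hex : ∃ r : ℕ, r.Prime ∧ r ∣ Nat.card F ∧ ((r : ℕ) : k) ≠ 0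
  · obtain ⟨r, hr, hrd, hrk⟩ := hex
    obtain ⟨z0, hz01, hz0c, hz0r⟩ := exists_central_of_prime hnil r hr hrd
    -- the central subgroup
    let Ω : Subgroup F :=
      { carrier := {x | x ∈ Subgroup.center F ∧ x ^ r = 1}
        mul_mem' := by
          rintro a b ⟨ha, ha'⟩ ⟨hb, hb'⟩
          refine ⟨Subgroup.mul_mem _ ha hb, ?_⟩
          have hcomm : Commute a b := Subgroup.mem_center_iff.1 hb a
          rw [hcomm.mul_pow, ha', hb', one_mul]
        one_mem' := ⟨Subgroup.one_mem _, one_pow _⟩
        inv_mem' := by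
          rintro a ⟨ha, ha'⟩
          exact ⟨Subgroup.inv_mem _ ha, by rw [inv_pow, ha', inv_one]⟩ }
    have hΩc : ∀ x ∈ Ω, ∀ y, y * x = x * y := fun x hx y => Subgroup.mem_center_iff.1 hx.1 y
    haveI hΩn : Ω.Normal := ⟨fun x hx g => by
      rw [hΩc x hx g, mul_inv_cancel_right]; exact hx⟩
    have hτΩ : ∀ h x, x ∈ Ω → τ h x ∈ Ω := by
      intro h x hx
      refine ⟨Subgroup.mem_center_iff.2 fun y => ?_, by rw [← map_pow, hx.2, map_one]⟩
      have h1 := hΩc x hx (τ h⁻¹ y)
      have h2 := congrArg (τ h) h1
      rwa [map_mul, map_mul, tau_tau_inv] at h2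
    have hz0 : z0 ∈ Ω := ⟨hz0c, hz0r⟩
    have hΩne : Ω ≠ ⊥ := by
      intro h
      rw [h, Subgroup.mem_bot] at hz0
      exact hz01 hz0
    haveI : Fact r.Prime := ⟨hr⟩
    have hcardΩ : ((Nat.card Ω : ℕ) : k) ≠ 0 := by
      have hp : IsPGroup r Ω := fun x => ⟨1, by
        rw [pow_one]; exact Subtype.ext x.2.2⟩
      obtain ⟨m, hm⟩ := IsPGroup.iff_card.1 hp
      rw [hm]
      push_cast
      exact pow_ne_zero _ hrk
    let τΩ := restrictTau τ Ω hτΩ
    let ψΩ : Ω →* Module.End k V := ψ.comp Ω.subtype
    have hfpfΩ : ∀ h, h ≠ 1 → ∀ z, τΩ h z = z → z = 1 := fun h hh z hz =>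
      Subtype.ext (hfpf h hh z (congrArg Subtype.val hz))
    have hcΩ : ∀ h z, ρ h * ψΩ z = ψΩ (τΩ h z) * ρ h := fun h z => hc h z
    have hcommΩ : ∀ a b : Ω, a * b = b * a := fun a b =>
      Subtype.ext (hΩc b b.2 a)
    obtain ⟨π₁, hπ₁⟩ := abelian_free' hcommΩ hcardΩ ρ τΩ hfpfΩ ψΩ hcΩ
    letI : Fintype Ω := Fintype.ofFinite Ω
    set c : k := ((Nat.card Ω : ℕ) : k)⁻¹ with hc'
    have hc0 : c * ((Nat.card Ω : ℕ) : k) = 1 := inv_mul_cancel₀ hcardΩ
    set a : Module.End k V := c • ∑ z : Ω, ψΩ z with ha
    have hψa : ∀ z : Ω, ψΩ z * a = a := by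
      intro z
      rw [ha, mul_smul_comm, Finset.mul_sum]
      simp only [← map_mul]
      congr 1
      exact Fintype.sum_equiv (Equiv.mulLeft z) _ _ (fun x => rfl)
    have hcard' : ∀ A : Module.End k V, (∀ z : Ω, ψΩ z * A = A) → a * A = A := by
      intro A hA
      rw [ha, smul_mul_assoc, Finset.sum_mul, Finset.sum_congr rfl (fun z _ => hA z),
        Finset.sum_const, Finset.card_univ, ← Nat.card_eq_fintype_card,
        ← Nat.cast_smul_eq_nsmul k, smul_smul, hc0, one_smul]
    have haa : a * a = a := hcard' a hψa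
    have hψxa : ∀ x, ψ x * a = a * ψ x := by
      intro x
      rw [ha, mul_smul_comm, smul_mul_assoc, Finset.mul_sum, Finset.sum_mul]
      congr 1
      refine Finset.sum_congr rfl fun z _ => ?_
      show ψ x * ψ z = ψ z * ψ x
      rw [← map_mul, ← map_mul, hΩc _ z.2 x]
    have hρa : ∀ h, ρ h * a = a * ρ h := by
      intro h
      rw [ha, mul_smul_comm, smul_mul_assoc, Finset.mul_sum, Finset.sum_mul]
      congr 1
      simp only [hcΩ]
      exact Fintype.sum_equiv (τΩ h).toEquiv _ _ (fun x => rfl)
    have hae : a * e = e * a := by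
      rw [ha, mul_smul_comm, smul_mul_assoc, Finset.mul_sum, Finset.sum_mul]
      congr 1
      exact Finset.sum_congr rfl fun z _ => heψ z
    have ha1e : a * (1 - e) = 1 - e := hcard' _ (fun z => htriv z)
    have hfa : 1 - a = e - a * e := by
      have h1 : a - a * e = 1 - e := by
        rw [← ha1e, mul_sub, mul_one]
      have h2 : e - a * e = (a - a * e) - a + e := by abel
      rw [h2, h1]; abel
    have ha1a : a * (1 - a) = 0 := by rw [mul_sub, mul_one, haa, sub_self]
    have h1aa : (1 - a) * a = 0 := by rw [sub_mul, one_mul, haa, sub_self]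
    -- the representation of the quotient
    have h11 : (1 - a) * (1 - a) = 1 - a := by
      rw [sub_mul, one_mul, mul_sub, mul_one, haa]; abel
    let ψt : F →* Module.End k V :=
      { toFun := fun x => ψ x * a + (1 - a)
        map_one' := by simp
        map_mul' := by
          intro x y
          have e1 : (ψ x * a) * (ψ y * a) = ψ x * ψ y * a := by
            calc (ψ x * a) * (ψ y * a) = ψ x * (a * ψ y) * a := by noncomm_ring
              _ = ψ x * (ψ y * a) * a := by rw [hψxa]
              _ = ψ x * ψ y * (a * a) := by noncomm_ring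
              _ = _ := by rw [haa]
          have e2 : (ψ x * a) * (1 - a) = 0 := by rw [mul_assoc, ha1a, mul_zero]
          have e3 : (1 - a) * (ψ y * a) = 0 := by
            rw [hψxa, ← mul_assoc, h1aa, zero_mul]
          show ψ (x * y) * a + (1 - a) = (ψ x * a + (1 - a)) * (ψ y * a + (1 - a))
          rw [add_mul, mul_add, mul_add, e1, e2, e3, h11, map_mul]
          abel }
    have hψt : ∀ x, ψt x = ψ x * a + (1 - a) := fun _ => rfl
    have hker : Ω ≤ ψt.ker := by
      intro z hz
      rw [MonoidHom.mem_ker, hψt]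
      have := hψa ⟨z, hz⟩
      have h2 : ψ z * a = a := this
      rw [h2]; abel
    let ψq : F ⧸ Ω →* Module.End k V := QuotientGroup.lift Ω ψt hker
    have hψq : ∀ x : F, ψq (x : F ⧸ Ω) = ψ x * a + (1 - a) := fun _ => rfl
    let τq := quotTau τ Ω hτΩ
    have hlt : Nat.card (F ⧸ Ω) < n := by
      rw [← hn, Subgroup.card_eq_card_quotient_mul_card_subgroup Ω]
      have h1 : 1 < Nat.card Ω := by
        haveI : Nontrivial Ω := (Subgroup.nontrivial_iff_ne_bot _).2 hΩne
        exact Finite.one_lt_card
      exact lt_mul_of_one_lt_right Nat.card_pos h1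
    have h1aae : (1 - a) * (a * e) = 0 := by rw [← mul_assoc, h1aa, zero_mul]
    have hae1a : a * e * (1 - a) = 0 := by
      rw [hae, mul_assoc, ha1a, mul_zero]
    have hee' : (a * e) * (a * e) = a * e := by
      calc a * e * (a * e) = a * (e * a) * e := by noncomm_ring
        _ = a * (a * e) * e := by rw [hae]
        _ = (a * a) * (e * e) := by noncomm_ring
        _ = a * e := by rw [haa, he]
    have hqe : ∀ x, (ψ x * a + (1 - a)) * (a * e) = ψ x * (a * e) := by
      intro x
      rw [add_mul, h1aae, add_zero]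
      calc ψ x * a * (a * e) = ψ x * ((a * a) * e) := by noncomm_ring
        _ = _ := by rw [haa]
    have heq : ∀ x, (a * e) * (ψ x * a + (1 - a)) = ψ x * (a * e) := by
      intro x
      rw [mul_add, hae1a, add_zero]
      calc a * e * (ψ x * a) = a * (e * ψ x) * a := by noncomm_ring
        _ = a * (ψ x * e) * a := by rw [heψ]
        _ = (a * ψ x) * (e * a) := by noncomm_ring
        _ = (ψ x * a) * (a * e) := by rw [hψxa, hae]
        _ = ψ x * ((a * a) * e) := by noncomm_ring
        _ = _ := by rw [haa]
    have hρae : ∀ h, ρ h * (a * e) = (a * e) * ρ h := by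
      intro h
      calc ρ h * (a * e) = (ρ h * a) * e := by noncomm_ring
        _ = a * (ρ h * e) := by rw [hρa]; noncomm_ring
        _ = a * (e * ρ h) := by rw [heρ]
        _ = _ := by noncomm_ring
    have h1a1e : (1 - a) * (1 - e) = 0 := by
      rw [sub_mul, one_mul, ha1e, sub_self]
    have h1ae : 1 - a * e = (1 - a) + (1 - e) := by
      have h1 : a - a * e = 1 - e := by
        rw [← ha1e, mul_sub, mul_one]
      rw [← h1]; abel
    obtain ⟨π₂, hπ₂⟩ := ih _ hlt (F ⧸ Ω) rfl inferInstance τq
      (fun h hh x hx => quotTau_fpf τ Ω hτΩ h (hfpf h hh) x hx) ψq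
      (by
        intro h x
        induction x using QuotientGroup.induction_on with
        | H x =>
          rw [hψq]
          show _ = ψq ((τ h x : F) : F ⧸ Ω) * ρ h
          rw [hψq]
          calc ρ h * (ψ x * a + (1 - a)) = (ρ h * ψ x) * a + (ρ h - ρ h * a) := by noncomm_ring
            _ = ψ (τ h x) * ρ h * a + (ρ h - a * ρ h) := by rw [hc, hρa]
            _ = ψ (τ h x) * (ρ h * a) + (ρ h - a * ρ h) := by noncomm_ring
            _ = ψ (τ h x) * (a * ρ h) + (ρ h - a * ρ h) := by rw [hρa]
            _ = _ := by noncomm_ring)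
      (a * e) hee'
      (by
        intro x
        induction x using QuotientGroup.induction_on with
        | H x => rw [hψq, hqe, heq])
      hρae
      (by
        intro x
        induction x using QuotientGroup.induction_on with
        | H x =>
          rw [hψq, h1ae, mul_add]
          have e1 : (ψ x * a + (1 - a)) * (1 - a) = 1 - a := by
            rw [add_mul, h11, mul_assoc, ha1a, mul_zero, zero_add]
          have e2 : (ψ x * a + (1 - a)) * (1 - e) = 1 - e := by
            rw [add_mul, h1a1e, add_zero, mul_assoc, ha1e, htriv]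
          rw [e1, e2])
      (by
        intro v hv hvq
        have hav : a v = v := by
          have : (a * (a * e)) v = (a * e) v := by
            rw [← mul_assoc, haa]
          rw [Module.End.mul_apply, hv] at this
          exact this
        have hev : e v = v := by
          have h1 : e * (a * e) = a * e := by
            calc e * (a * e) = (e * a) * e := by noncomm_ring
              _ = a * (e * e) := by rw [← hae]; noncomm_ring
              _ = _ := by rw [he]
          have : (e * (a * e)) v = (a * e) v := by rw [h1]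
          rw [Module.End.mul_apply, hv] at this
          exact this
        apply hfix v hev
        intro x
        have h1 := hvq (x : F ⧸ Ω)
        rw [hψq] at h1
        have h2 : (ψ x * a + (1 - a)) v = ψ x (a v) + (v - a v) := by
          simp [Module.End.mul_apply, LinearMap.add_apply, LinearMap.sub_apply]
        rw [h2, hav, sub_self, add_zero] at h1
        exact h1)
    refine ⟨π₂ + π₁, ?_⟩
    have hρ1a : ∀ h, ρ h * (1 - a) = (1 - a) * ρ h := by
      intro h
      rw [mul_sub, sub_mul, mul_one, one_mul, hρa]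
    have := hπ₂.add hπ₁ hae1a h1aae hρae hρ1a
    have h3 : a * e + (1 - a) = e := by
      rw [hfa]; abel
    rwa [h3] at this
  · -- the complementary case: `e = 0`
    push Not at hex
    have he0 : e = 0 := by
      by_cases hF1 : Nat.card F = 1
      · haveI : Subsingleton F := (Nat.card_eq_one_iff_unique.1 hF1).1
        ext v
        have h1 := hfix (e v) (by
          have := LinearMap.congr_fun he v
          simpa [Module.End.mul_apply] using this) (fun x => by
            rw [Subsingleton.elim x 1, map_one]; rfl)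
        simpa using h1
      · obtain ⟨r, hr, hrd⟩ := Nat.exists_prime_and_dvd hF1
        have hrk := hex r hr hrd
        haveI : Fact r.Prime := ⟨hr⟩
        have hvan : ∀ q : ℕ, q.Prime → ((q : ℕ) : k) = 0 → q = ringChar k := by
          intro q hq hq0
          have h1 : ringChar k ∣ q := (CharP.cast_eq_zero_iff k (ringChar k) q).1 hq0
          rcases (Nat.dvd_prime hq).1 h1 with h2 | h2
          · exact absurd h2 (CharP.char_ne_one k (ringChar k))
          · exact h2.symm
        have hpg : IsPGroup r F := by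
          apply IsPGroup.of_card (n := (Nat.card F).primeFactorsList.length)
          apply Nat.eq_prime_pow_of_unique_prime_dvd Nat.card_pos.ne'
          intro d hd hdv
          rw [hvan d hd (hex d hd hdv), hvan r hr hrk]
        by_contra hne
        let U := LinearMap.range e
        have hUi : ∀ x, ∀ u ∈ U, ψ x u ∈ U := by
          rintro x _ ⟨w, rfl⟩
          refine ⟨ψ x w, ?_⟩
          have := LinearMap.congr_fun (heψ x) w
          simpa [Module.End.mul_apply] using this.symm
        let ψU : F →* Module.End k U :=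
          { toFun := fun x => (ψ x).restrict (hUi x)
            map_one' := by
              ext u
              simp
            map_mul' := by
              intro x y
              ext u
              simp }
        haveI : Nontrivial U := by
          by_contra hnt
          rw [not_nontrivial_iff_subsingleton] at hnt
          apply hne
          ext v
          have : (⟨e v, ⟨v, rfl⟩⟩ : U) = 0 := Subsingleton.elim _ _
          simpa using congrArg Subtype.val this
        obtain ⟨u, hu0, hu⟩ := Cfsg.Agent.Lib.FrobRep.PLinear.exists_fixed_vector hpg ψU hrk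
        apply hu0
        apply Subtype.ext
        apply hfix u
        · obtain ⟨w, hw⟩ := u.2
          rw [← hw]
          have := LinearMap.congr_fun he w
          simpa [Module.End.mul_apply] using this
        · intro x
          exact congrArg Subtype.val (hu x)
    subst he0
    exact ⟨0, RelFree.zero ρ⟩

end Cfsg.Agent.Lib.FrobFree
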