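import Cfsg.Agent.Lib.FrobFree.All

/-!
# From `NBData` to free decompositions of a module
-/

set_option autoImplicit false
set_option linter.style.haveILetI false

namespace Cfsg.Agent.Lib.FrobFree

open scoped BigOperators

section Matrix

variable {C H : Type*} [CommRing C] [Group H] [Fintype H] [DecidableEq H]

/-- The reverse relation, from the inverse of a matrix. -/
theorem NBData.reverse {T : H →* (C ≃+* C)} {f b b' : C} (h : NBData T f b b')
    (hT : ∀ g, T g f = f) (hff : f * f = f) (g : H) :
    ∑ a : H, T a b * T (g * a) b' = if g = 1 then f else 0 := by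
  classical
  -- matrices
  let P : Matrix H H C := Matrix.of fun a c => T (c * a) b + if a = c then 1 - f else 0
  let Q : Matrix H H C := Matrix.of fun c a => T (c * a) b' + if c = a then 1 - f else 0
  have hb : ∀ a, (1 - f) * T a b = 0 := by
    intro a
    conv_lhs => rw [← h.left, map_mul, hT]
    calc (1 - f) * (f * T a b) = (f - f * f) * T a b := by ring
      _ = 0 := by rw [hff, sub_self, zero_mul]
  have hb' : ∀ a, (1 - f) * T a b' = 0 := by
    intro a
    conv_lhs => rw [← h.right, map_mul, hT]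
    calc (1 - f) * (f * T a b') = (f - f * f) * T a b' := by ring
      _ = 0 := by rw [hff, sub_self, zero_mul]
  have h11 : (1 - f) * (1 - f) = 1 - f := by
    calc (1 - f) * (1 - f) = 1 - f - f + f * f := by ring
      _ = 1 - f := by rw [hff]; ring
  have hbase : ∀ a c : H, ∑ x : H, T (x * a) b * T (x * c) b' = if a = c then f else 0 := by
    intro a c
    have h1 := h.tr (c⁻¹ * a)
    have h2 : ∑ x : H, T (x * c) (T (c⁻¹ * a) b * b') = if c⁻¹ * a = 1 then f else 0 := by
      rw [← h1]
      exact Fintype.sum_equiv (Equiv.mulRight c) _ _ (fun x => rfl)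
    have h3 : ∀ x : H, T (x * c) (T (c⁻¹ * a) b * b') = T (x * a) b * T (x * c) b' := by
      intro x
      rw [map_mul (T (x * c))]
      congr 1
      rw [← T_mul]
      congr 2
      group
    rw [Finset.sum_congr rfl (fun x _ => h3 x)] at h2
    rw [h2]
    by_cases hac : a = c
    · subst hac; simp
    · have : c⁻¹ * a ≠ 1 := fun h4 => hac (by rw [inv_mul_eq_one] at h4; exact h4.symm)
      simp [hac, this]
  have hPQ : P * Q = 1 := by
    ext a c
    rw [Matrix.mul_apply]
    simp only [P, Q, Matrix.of_apply]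
    have h1 : ∀ x : H, (T (x * a) b + if a = x then 1 - f else 0) *
        (T (x * c) b' + if x = c then 1 - f else 0) =
        T (x * a) b * T (x * c) b' + (if a = x then 1 - f else 0) * T (x * c) b' +
          T (x * a) b * (if x = c then 1 - f else 0) +
          (if a = x then 1 - f else 0) * (if x = c then 1 - f else 0) := by
      intro x; ring
    rw [Finset.sum_congr rfl (fun x _ => h1 x)]
    have h2 : ∀ x : H, (if a = x then 1 - f else 0) * T (x * c) b' = 0 := by
      intro x; split_ifs
      · exact hb' _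
      · simp
    have h3 : ∀ x : H, T (x * a) b * (if x = c then 1 - f else 0) = 0 := by
      intro x; split_ifs
      · rw [mul_comm]; exact hb _
      · simp
    simp only [h2, h3, add_zero]
    rw [Finset.sum_add_distrib, hbase, Matrix.one_apply]
    by_cases hac : a = c
    · subst hac
      simp [h11]
    · have : ∀ x : H, (if a = x then 1 - f else 0) * (if x = c then 1 - f else 0) = 0 := by
        intro x
        by_cases h5 : a = x
        · subst h5; simp [hac]
        · simp [h5]
      simp [hac, this]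
  have hQP : Q * P = 1 := mul_eq_one_comm.1 hPQ
  have h1 := congrFun (congrFun hQP g) 1
  rw [Matrix.mul_apply] at h1
  simp only [P, Q, Matrix.of_apply] at h1
  have h4 : ∀ x : H, (T (g * x) b' + if g = x then 1 - f else 0) *
      (T (1 * x) b + if x = 1 then 1 - f else 0) =
      T x b * T (g * x) b' + (if g = x then 1 - f else 0) * T (1 * x) b +
        T (g * x) b' * (if x = 1 then 1 - f else 0) +
        (if g = x then 1 - f else 0) * (if x = 1 then 1 - f else 0) := by
    intro x; rw [one_mul]; ring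
  rw [Finset.sum_congr rfl (fun x _ => h4 x)] at h1
  have h2 : ∀ x : H, (if g = x then 1 - f else 0) * T (1 * x) b = 0 := by
    intro x; split_ifs
    · exact hb _
    · simp
  have h3 : ∀ x : H, T (g * x) b' * (if x = 1 then 1 - f else 0) = 0 := by
    intro x; split_ifs
    · rw [mul_comm]; exact hb' _
    · simp
  simp only [h2, h3, add_zero] at h1
  rw [Finset.sum_add_distrib, Matrix.one_apply] at h1
  by_cases hg : g = 1
  · subst hg
    simp only [↓reduceIte, Finset.sum_ite_eq', Finset.mem_univ, h11] at h1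
    simp only [↓reduceIte]
    have h5 : ∑ x : H, (if (1 : H) = x then 1 - f else 0) * (if x = 1 then 1 - f else 0) = 1 - f := by
      rw [Finset.sum_eq_single (1 : H)]
      · simp [h11]
      · intro x _ hx
        simp [hx, hx.symm]
      · simp
    rw [h5] at h1
    have := eq_sub_of_add_eq h1
    rw [this]; ring
  · rw [if_neg hg] at h1 ⊢
    have h5 : ∑ x : H, (if g = x then 1 - f else 0) * (if x = 1 then 1 - f else 0) = 0 := by
      apply Finset.sum_eq_zero
      intro x _
      by_cases h6 : g = x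
      · subst h6; simp [hg]
      · simp [h6]
    rw [h5, add_zero] at h1
    exact h1

end Matrix

section Oper

variable {k V H : Type*} [Field k] [AddCommGroup V] [Module k V] [Group H] [Fintype H]
  [DecidableEq H]

/-- Relative freeness. -/
structure RelFree (ρ : H →* Module.End k V) (e π : Module.End k V) : Prop where
  sum : ∑ h : H, ρ h * π * ρ h⁻¹ = e
  orth : ∀ h : H, π * ρ h * π = if h = 1 then π else 0
  left : e * π = π
  right : π * e = π

theorem RelFree.zero (ρ : H →* Module.End k V) : RelFree ρ (0 : Module.End k V) 0 := by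
  refine ⟨by simp, fun h => by simp, by simp, by simp⟩

theorem RelFree.add {ρ : H →* Module.End k V} {e₁ e₂ π₁ π₂ : Module.End k V}
    (h₁ : RelFree ρ e₁ π₁) (h₂ : RelFree ρ e₂ π₂) (h12 : e₁ * e₂ = 0) (h21 : e₂ * e₁ = 0)
    (hc₁ : ∀ h, ρ h * e₁ = e₁ * ρ h) (hc₂ : ∀ h, ρ h * e₂ = e₂ * ρ h) :
    RelFree ρ (e₁ + e₂) (π₁ + π₂) := by
  have c12 : ∀ h : H, π₁ * ρ h * π₂ = 0 := by
    intro h
    calc π₁ * ρ h * π₂ = (π₁ * e₁) * ρ h * (e₂ * π₂) := by rw [h₁.right, h₂.left]
      _ = π₁ * (e₁ * ρ h) * (e₂ * π₂) := by noncomm_ring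
      _ = π₁ * (ρ h * e₁) * (e₂ * π₂) := by rw [hc₁]
      _ = π₁ * ρ h * (e₁ * e₂) * π₂ := by noncomm_ring
      _ = 0 := by rw [h12]; simp
  have c21 : ∀ h : H, π₂ * ρ h * π₁ = 0 := by
    intro h
    calc π₂ * ρ h * π₁ = (π₂ * e₂) * ρ h * (e₁ * π₁) := by rw [h₂.right, h₁.left]
      _ = π₂ * (e₂ * ρ h) * (e₁ * π₁) := by noncomm_ring
      _ = π₂ * (ρ h * e₂) * (e₁ * π₁) := by rw [hc₂]
      _ = π₂ * ρ h * (e₂ * e₁) * π₁ := by noncomm_ring
      _ = 0 := by rw [h21]; simp
  refine ⟨?_, fun h => ?_, ?_, ?_⟩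
  · simp only [mul_add, add_mul]
    rw [Finset.sum_add_distrib, h₁.sum, h₂.sum]
  · have : (π₁ + π₂) * ρ h * (π₁ + π₂) =
        π₁ * ρ h * π₁ + π₁ * ρ h * π₂ + π₂ * ρ h * π₁ + π₂ * ρ h * π₂ := by noncomm_ring
    rw [this, c12, c21, h₁.orth, h₂.orth]
    split_ifs <;> simp
  · have a : e₁ * π₂ = 0 := by rw [← h₂.left, ← mul_assoc, h12, zero_mul]
    have b : e₂ * π₁ = 0 := by rw [← h₁.left, ← mul_assoc, h21, zero_mul]
    rw [add_mul, mul_add, mul_add, a, b, h₁.left, h₂.left]; simp
  · have a : π₁ * e₂ = 0 := by rw [← h₁.right, mul_assoc, h12, mul_zero]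
    have b : π₂ * e₁ = 0 := by rw [← h₂.right, mul_assoc, h21, mul_zero]
    rw [mul_add, add_mul, add_mul, a, b, h₁.right, h₂.right]; simp

/-- From relative freeness with `e = 1` to an internal direct sum. -/
theorem RelFree.isInternal {ι : Type*} [DecidableEq ι] (ρ : H →* Module.End k V) {π : Module.End k V}
    (hπ : RelFree ρ 1 π) (ν : ι ≃ H) :
    DirectSum.IsInternal (fun i : ι => (LinearMap.range π).map (ρ (ν i))) := by
  classical
  -- orthogonal projections
  let P : H → Module.End k V := fun h => ρ h * π * ρ h⁻¹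
  have hinv : ∀ h : H, ρ h * ρ h⁻¹ = 1 := fun h => by rw [← map_mul]; simp
  have hinv' : ∀ h : H, ρ h⁻¹ * ρ h = 1 := fun h => by rw [← map_mul]; simp
  have hPP : ∀ g h : H, P g * P h = if g = h then P g else 0 := by
    intro g h
    have h1 : P g * P h = ρ g * (π * ρ (g⁻¹ * h) * π) * ρ h⁻¹ := by
      simp only [P, map_mul]
      noncomm_ring
    rw [h1, hπ.orth]
    by_cases hgh : g = h
    · subst hgh
      simp [P, mul_assoc]
    · have : g⁻¹ * h ≠ 1 := fun h2 => hgh (by
        rw [inv_mul_eq_one] at h2; exact h2)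
      simp [hgh, this]
  have hmem : ∀ (h : H) (v : V), v ∈ (LinearMap.range π).map (ρ h) → P h v = v := by
    intro h v hv
    obtain ⟨w, ⟨u, rfl⟩, rfl⟩ := hv
    have hid : π * π = π := by
      have := hπ.orth 1
      simpa using this
    show (ρ h * π * ρ h⁻¹) (ρ h (π u)) = ρ h (π u)
    have h2 : (ρ h * π * ρ h⁻¹) * (ρ h * π) = ρ h * π := by
      calc (ρ h * π * ρ h⁻¹) * (ρ h * π) = ρ h * π * (ρ h⁻¹ * ρ h) * π := by noncomm_ring
        _ = ρ h * (π * π) := by rw [hinv']; noncomm_ring
        _ = ρ h * π := by rw [hid]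
    exact LinearMap.congr_fun h2 u
  have hrange : ∀ (h : H) (v : V), P h v ∈ (LinearMap.range π).map (ρ h) := by
    intro h v
    exact ⟨π (ρ h⁻¹ v), ⟨_, rfl⟩, rfl⟩
  have hsum : ∀ v : V, ∑ h : H, P h v = v := by
    intro v
    have := LinearMap.congr_fun hπ.sum v
    simpa [LinearMap.sum_apply, P] using this
  apply DirectSum.isInternal_submodule_of_iSupIndep_of_iSup_eq_top
  · rw [iSupIndep_iff_forall_dfinsupp]
    intro i x v hv
    have h1 : P (ν i) (x : V) = x := hmem _ _ x.2
    have h2 : P (ν i) (x : V) = 0 := by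
      rw [← hv, DFinsupp.lsum_apply_apply, DFinsupp.sumAddHom_apply, DFinsupp.sum, map_sum]
      apply Finset.sum_eq_zero
      intro j hj
      have hji : j ≠ i := by
        intro hji
        subst hji
        simp at hj
      have h3 : P (ν i) (((v.erase i) j : _) : V) = P (ν i) (P (ν j) (((v.erase i) j : _) : V)) := by
        rw [hmem _ _ ((v.erase i) j).2]
      simp only [LinearMap.coe_comp, Function.comp_apply, Submodule.coe_subtype,
        LinearMap.toAddMonoidHom_coe] 
      rw [h3]
      have h4 := LinearMap.congr_fun (hPP (ν i) (ν j)) (((v.erase i) j : _) : V)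
      rw [Module.End.mul_apply] at h4
      rw [h4, if_neg (fun h => hji (ν.injective h).symm)]
      rfl
    exact Subtype.ext (h1.symm.trans h2)
  · rw [eq_top_iff]
    intro v _
    rw [← hsum v]
    refine Submodule.sum_mem _ fun h _ => ?_
    have h1 : P h v ∈ (LinearMap.range π).map (ρ (ν (ν.symm h))) := by
      rw [ν.apply_symm_apply]; exact hrange h v
    exact Submodule.mem_iSup_of_mem (ν.symm h) h1

end Oper

end Cfsg.Agent.Lib.FrobFree
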