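import Cfsg.Agent.Lib.FrobFree.Field

/-!
# The orbit of a primitive idempotent

From the field statement to the relative datum `NBData` over the orbit sum of a primitive idempotent.
-/

set_option autoImplicit false
set_option linter.style.haveILetI false

namespace Cfsg.Agent.Lib.FrobFree

open scoped BigOperators

variable {C H : Type*} [CommRing C] [Group H]

theorem T_mul (T : H →* (C ≃+* C)) (a b : H) (x : C) : T (a * b) x = T a (T b x) := by
  rw [map_mul]; rfl

theorem T_one (T : H →* (C ≃+* C)) (x : C) : T 1 x = x := by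
  rw [map_one]; rfl

theorem T_inv_T (T : H →* (C ≃+* C)) (a : H) (x : C) : T a⁻¹ (T a x) = x := by
  rw [← T_mul]; simp [T_one]

theorem T_T_inv (T : H →* (C ≃+* C)) (a : H) (x : C) : T a (T a⁻¹ x) = x := by
  rw [← T_mul]; simp [T_one]

/-- The annihilator of a primitive idempotent. -/
def annI (e : C) : Ideal C where
  carrier := {x | x * e = 0}
  add_mem' := by
    intro a b ha hb
    simp only [Set.mem_ofPred_eq] at *
    rw [add_mul, ha, hb, add_zero]
  zero_mem' := by simp
  smul_mem' := by
    intro c x hx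
    simp only [Set.mem_ofPred_eq, smul_eq_mul] at *
    rw [mul_assoc, hx, mul_zero]

theorem mem_annI {e x : C} : x ∈ annI e ↔ x * e = 0 := Iff.rfl

theorem annI_isMaximal {e : C} (he : Prim e) : (annI e).IsMaximal := by
  rw [Ideal.isMaximal_iff]
  refine ⟨fun h => he.2.1 (by simpa [mem_annI] using h), fun J x hJ hx hxJ => ?_⟩
  rcases he.2.2 x with h | ⟨y, hy⟩
  · exact absurd h hx
  · have h1 : 1 - x * y ∈ annI e := by
      rw [mem_annI, sub_mul, one_mul, hy, sub_self]
    have h2 := J.add_mem (J.mul_mem_right y hxJ) (hJ h1)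
    simpa using h2

/-- The stabilizer of `e`. -/
def stabI (T : H →* (C ≃+* C)) (e : C) : Subgroup H where
  carrier := {h | T h e = e}
  mul_mem' := by
    intro a b ha hb
    simp only [Set.mem_ofPred_eq] at *
    rw [T_mul, hb, ha]
  one_mem' := by simp [T_one]
  inv_mem' := by
    intro a ha
    simp only [Set.mem_ofPred_eq] at *
    have : T a⁻¹ (T a e) = e := T_inv_T T a e
    rwa [ha] at this

theorem mem_stabI {T : H →* (C ≃+* C)} {e : C} {h : H} : h ∈ stabI T e ↔ T h e = e := Iff.rfl

theorem annI_map {T : H →* (C ≃+* C)} {e : C} {γ : H} (hγ : γ ∈ stabI T e) :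
    annI e = (annI e).map ((T γ : C ≃+* C) : C →+* C) := by
  have hγ' : T γ e = e := hγ
  have hγi : T γ⁻¹ e = e := (stabI T e).inv_mem hγ
  apply le_antisymm
  · intro x hx
    have h1 : T γ⁻¹ x ∈ annI e := by
      rw [mem_annI] at hx ⊢
      have := congrArg (T γ⁻¹) hx
      rwa [map_mul, hγi, map_zero] at this
    have h2 : T γ (T γ⁻¹ x) = x := T_T_inv T γ x
    rw [← h2]
    exact Ideal.mem_map_of_mem _ h1
  · rw [Ideal.map_le_iff_le_comap]
    intro x hx
    rw [Ideal.mem_comap, mem_annI]
    rw [mem_annI] at hx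
    have := congrArg (T γ) hx
    rwa [map_mul, hγ', map_zero] at this

/-- The induced action of the stabilizer on the residue field. -/
noncomputable def resHom (T : H →* (C ≃+* C)) (e : C) :
    stabI T e →* ((C ⧸ annI e) ≃+* (C ⧸ annI e)) where
  toFun γ := Ideal.quotientEquiv (annI e) (annI e) (T γ) (annI_map γ.2)
  map_one' := by
    ext x
    obtain ⟨x, rfl⟩ := Ideal.Quotient.mk_surjective x
    simp [T_one]
  map_mul' := by
    intro a b
    ext x
    obtain ⟨x, rfl⟩ := Ideal.Quotient.mk_surjective x
    simp [T_mul]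

theorem resHom_mk (T : H →* (C ≃+* C)) (e : C) (γ : stabI T e) (x : C) :
    resHom T e γ (Ideal.Quotient.mk (annI e) x) = Ideal.Quotient.mk (annI e) (T γ x) :=
  Ideal.quotientEquiv_mk (annI e) (annI e) (T γ) (annI_map γ.2) x

variable [Fintype H] [DecidableEq H]

/-- The orbit datum. -/
theorem orbit_nb (T : H →* (C ≃+* C)) {e : C} (he : Prim e)
    (hfaith : ∀ γ : H, γ ∈ stabI T e → γ ≠ 1 → ∃ x, (T γ x - x) * e ≠ 0) :
    ∃ (O : Finset C) (b b' : C), (∀ x ∈ O, Prim x) ∧ e ∈ O ∧ (∀ x, x ∈ O ↔ ∃ g, T g e = x) ∧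
      NBData T (∑ x ∈ O, x) b b' := by
  classical
  haveI hmax := annI_isMaximal he
  letI : Field (C ⧸ annI e) := Ideal.Quotient.field (annI e)
  have hinj : Function.Injective (resHom T e) := by
    rw [injective_iff_map_eq_one]
    intro γ hγ
    by_contra hne
    have hne' : (γ : H) ≠ 1 := fun h => hne (Subtype.ext h)
    obtain ⟨x, hx⟩ := hfaith γ γ.2 hne'
    apply hx
    have h1 := congrArg (fun φ => φ (Ideal.Quotient.mk (annI e) x)) hγ
    simp only [resHom_mk] at h1
    have h2 : Ideal.Quotient.mk (annI e) (T γ x) = Ideal.Quotient.mk (annI e) x := h1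
    rw [Ideal.Quotient.eq] at h2
    exact h2
  obtain ⟨b0, b0', hb0⟩ := field_nb (resHom T e) hinj
  obtain ⟨c, hc⟩ := Ideal.Quotient.mk_surjective b0
  obtain ⟨c', hc'⟩ := Ideal.Quotient.mk_surjective b0'
  let O : Finset C := Finset.univ.image (fun g : H => T g e)
  have hO : ∀ x, x ∈ O ↔ ∃ g, T g e = x := by
    intro x
    simp [O]
  have hOP : ∀ x ∈ O, Prim x := by
    intro x hx
    obtain ⟨g, rfl⟩ := (hO x).1 hx
    exact he.map _
  have heO : e ∈ O := (hO e).2 ⟨1, by simp⟩
  let E : C := ∑ x ∈ O, x
  have hEx : ∀ x ∈ O, E * x = x := by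
    intro x hx
    simp only [E]
    rw [Finset.sum_mul, Finset.sum_eq_single x]
    · exact (hOP x hx).1
    · intro y hy hne
      exact (hOP y hy).orth (hOP x hx) hne
    · intro h; exact absurd hx h
  -- the value on the stabilizer
  have hstab : ∀ h : stabI T e, ∑ γ : stabI T e, T γ (T h (c * e) * (c' * e)) =
      if (h : H) = 1 then e else 0 := by
    intro h
    have h1 : ∀ γ : stabI T e, T γ (T h (c * e) * (c' * e)) =
        T γ (T h c * c') * e := by
      intro γ
      have hγ : T (γ : H) e = e := γ.2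
      have hh : T (h : H) e = e := h.2
      rw [map_mul (T (h : H)) c e, hh]
      have : T (h : H) c * e * (c' * e) = T (h : H) c * c' * e := by
        calc T (h : H) c * e * (c' * e) = T (h : H) c * c' * (e * e) := by ring
          _ = _ := by rw [he.1]
      rw [this, map_mul, hγ]
    rw [Finset.sum_congr rfl (fun γ _ => h1 γ), ← Finset.sum_mul]
    have h2 := hb0 h
    have h3 : Ideal.Quotient.mk (annI e) (∑ γ : stabI T e, T γ (T h c * c')) =
        if h = 1 then 1 else 0 := by
      rw [← h2, map_sum]
      refine Finset.sum_congr rfl fun γ _ => ?_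
      rw [← hc, ← hc', resHom_mk, ← map_mul, resHom_mk]
    by_cases hh : h = 1
    · have hh' : (h : H) = 1 := congrArg Subtype.val hh
      rw [if_pos hh] at h3
      rw [if_pos hh']
      rw [← map_one (Ideal.Quotient.mk (annI e)), Ideal.Quotient.eq, mem_annI, sub_mul, one_mul,
        sub_eq_zero] at h3
      exact h3
    · have hh' : (h : H) ≠ 1 := fun h4 => hh (Subtype.ext h4)
      rw [if_neg hh] at h3
      rw [if_neg hh']
      rw [Ideal.Quotient.eq_zero_iff_mem, mem_annI] at h3
      exact h3
  refine ⟨O, c * e, c' * e, hOP, heO, hO, ?_, ?_, fun h => ?_⟩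
  · show E * (c * e) = c * e
    rw [mul_left_comm, hEx e heO]
  · show E * (c' * e) = c' * e
    rw [mul_left_comm, hEx e heO]
  · by_cases hh : h ∈ stabI T e
    · -- group by fibres of `g ↦ T g e`
      have hfib : ∀ x ∈ O, ∑ g ∈ Finset.univ.filter (fun g : H => T g e = x),
          T g (T h (c * e) * (c' * e)) = if h = 1 then x else 0 := by
        intro x hx
        obtain ⟨r, rfl⟩ := (hO x).1 hx
        have h1 : ∑ g ∈ Finset.univ.filter (fun g : H => T g e = T r e),
            T g (T h (c * e) * (c' * e)) =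
            ∑ γ : stabI T e, T r (T γ (T h (c * e) * (c' * e))) := by
          symm
          refine Finset.sum_bij (fun (γ : stabI T e) _ => r * (γ : H)) ?_ ?_ ?_ ?_
          · intro γ _
            simp only [Finset.mem_filter, Finset.mem_univ, true_and]
            rw [T_mul]
            exact congrArg (T r) γ.2
          · intro γ₁ _ γ₂ _ h12
            exact Subtype.ext (mul_left_cancel h12)
          · intro g hg
            simp only [Finset.mem_filter, Finset.mem_univ, true_and] at hg
            refine ⟨⟨r⁻¹ * g, ?_⟩, Finset.mem_univ _, by simp⟩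
            rw [mem_stabI, T_mul, hg, T_inv_T]
          · intro γ _
            rw [T_mul]
        rw [h1, ← map_sum, hstab ⟨h, hh⟩]
        by_cases h1' : h = 1
        · simp [h1']
        · simp [h1']
      rw [← Finset.sum_fiberwise_of_maps_to (s := Finset.univ) (t := O) (g := fun g : H => T g e)
        (fun g _ => (hO _).2 ⟨g, rfl⟩)]
      rw [Finset.sum_congr rfl hfib]
      by_cases h1' : h = 1
      · simp [h1']
      · simp [h1']
    · have h1 : h ≠ 1 := by
        rintro rfl
        exact hh ((stabI T e).one_mem)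
      rw [if_neg h1]
      have h2 : T h e * e = 0 := (he.map (T h)).orth he hh
      apply Finset.sum_eq_zero
      intro g _
      have h3 : T h (c * e) * (c' * e) = T h c * c' * (T h e * e) := by
        rw [map_mul]; ring
      rw [h3, h2, mul_zero, map_zero]

end Cfsg.Agent.Lib.FrobFree
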